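import Mathlib.GroupTheory.SpecificGroups.Alternating
import Mathlib.GroupTheory.PGroup
import Mathlib.GroupTheory.Perm.Sign
import Mathlib.LinearAlgebra.Dimension.Finrank
import Mathlib.LinearAlgebra.FiniteDimensional.Defs
import Mathlib.RingTheory.RootsOfUnity.PrimitiveRoots

/-!
# Definitions for part T3 of S2654 (helper224)

The permutations `x 0, ..., x 5`, `c`, `d` (= `c'` of the plan) of 18 points, the group `P18` of order `3 ^ 8`
generated by them, and the weight spaces of the elementary abelian group `<x 0, ..., x 5>`.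

The final theorem of part T3b (in `Cfsg.Agent.H224.E8T3b`) is

`theorem Cfsg.Agent.H224.E8.false_of_wsp {K V : Type*} [Field K] [AddCommGroup V] [Module K V] [FiniteDimensional K V]
  {w : K} (hw : IsPrimitiveRoot w 3) (ρ : ↥P18 →* Module.End K V) (hfus : Fus ρ)
  (h345 : ∀ lam, 3 ≤ nz lam → nz lam ≤ 5 → wsp w ρ lam = ⊥)
  (h6 : ∀ lam, nz lam = 6 → Module.finrank K (wsp w ρ lam) = 2) : False`
-/

set_option autoImplicit false

namespace Cfsg.Agent.H224.E8

open Equiv

/-- The product of a list of transpositions of the points `0, ..., 17`. -/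
def sw (L : List (Fin 18 × Fin 18)) : Perm (Fin 18) := (L.map fun p => swap p.1 p.2).prod

theorem sign_sw : ∀ L : List (Fin 18 × Fin 18), (∀ p ∈ L, p.1 ≠ p.2) → Perm.sign (sw L) = (-1) ^ L.length
  | [], _ => by simp [sw]
  | p :: L, h => by
    have h1 : sw (p :: L) = swap p.1 p.2 * sw L := by simp [sw]
    rw [h1, Perm.sign_mul, Perm.sign_swap (h p (by simp)), sign_sw L (fun q hq => h q (by simp [hq])),
      List.length_cons, pow_succ']

theorem sw_mem (L : List (Fin 18 × Fin 18)) (h : ∀ p ∈ L, p.1 ≠ p.2) (h2 : Even L.length) :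
    sw L ∈ alternatingGroup (Fin 18) := by
  rw [Perm.mem_alternatingGroup, sign_sw L h, h2.neg_one_pow]

/-- The three-cycle `(3 i, 3 i + 1, 3 i + 2)`. -/
def xp (i : Fin 6) : Perm (Fin 18) :=
  sw [(⟨3 * i, by omega⟩, ⟨3 * i + 1, by omega⟩), (⟨3 * i + 1, by omega⟩, ⟨3 * i + 2, by omega⟩)]

/-- The nine-cycle `(0, 3, 6, 1, 4, 7, 2, 5, 8)`. -/
def cp : Perm (Fin 18) := sw [(0, 3), (3, 6), (6, 1), (1, 4), (4, 7), (7, 2), (2, 5), (5, 8)]

/-- The nine-cycle `(9, 12, 15, 10, 13, 16, 11, 14, 17)`. -/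
def dp : Perm (Fin 18) := sw [(9, 12), (12, 15), (15, 10), (10, 13), (13, 16), (16, 11), (11, 14), (14, 17)]

/-- The three-cycle `(3 i, 3 i + 1, 3 i + 2)` (in the plan: `x_(i+1)`). -/
def x (i : Fin 6) : ↥(alternatingGroup (Fin 18)) :=
  ⟨xp i, sw_mem _ (by intro p hp; fin_cases hp <;> simp) (by simp)⟩

/-- The nine-cycle `(0, 3, 6, 1, 4, 7, 2, 5, 8)`. -/
def c : ↥(alternatingGroup (Fin 18)) := ⟨cp, sw_mem _ (by decide +kernel) (by decide +kernel)⟩

/-- The nine-cycle `(9, 12, 15, 10, 13, 16, 11, 14, 17)` (in the plan: `c'`). -/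
def d : ↥(alternatingGroup (Fin 18)) := ⟨dp, sw_mem _ (by decide +kernel) (by decide +kernel)⟩

/-- The group of order `3 ^ 8`. -/
def P18 : Subgroup ↥(alternatingGroup (Fin 18)) := Subgroup.closure (Set.range x ∪ {c, d})

theorem x_mem (i : Fin 6) : x i ∈ P18 := Subgroup.subset_closure (Or.inl ⟨i, rfl⟩)
theorem c_mem : c ∈ P18 := Subgroup.subset_closure (Or.inr (by simp))
theorem d_mem : d ∈ P18 := Subgroup.subset_closure (Or.inr (by simp))

theorem P18_le {S : Subgroup ↥(alternatingGroup (Fin 18))} (hx : ∀ i, x i ∈ S) (hc : c ∈ S) (hd : d ∈ S) :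
    P18 ≤ S := by
  rw [P18, Subgroup.closure_le, Set.union_subset_iff]
  refine ⟨Set.range_subset_iff.2 hx, Set.insert_subset hc (Set.singleton_subset_iff.2 hd)⟩

/-- `x i` as an element of `P18`. -/
def xP (i : Fin 6) : ↥P18 := ⟨x i, x_mem i⟩
/-- `c` as an element of `P18`. -/
def cP : ↥P18 := ⟨c, c_mem⟩
/-- `d` as an element of `P18`. -/
def dP : ↥P18 := ⟨d, d_mem⟩

/-- The number of non-zero coordinates of a weight. -/
def nz (lam : Fin 6 → ZMod 3) : ℕ := (Finset.univ.filter fun i => lam i ≠ 0).card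

section

variable {K V : Type*} [Field K] [AddCommGroup V] [Module K V]

/-- The weight space of `<x 0, ..., x 5>` of weight `lam`: `x i v = w ^ (lam i) v`. -/
def wsp (w : K) (ρ : ↥P18 →* Module.End K V) (lam : Fin 6 → ZMod 3) : Submodule K V where
  carrier := {v | ∀ i, ρ (xP i) v = w ^ (lam i).val • v}
  add_mem' := by
    intro a b ha hb i
    rw [map_add, ha i, hb i, smul_add]
  zero_mem' := by
    intro i
    rw [map_zero, smul_zero]
  smul_mem' := by
    intro r a ha i
    rw [map_smul, ha i, smul_comm]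

theorem mem_wsp {w : K} {ρ : ↥P18 →* Module.End K V} {lam : Fin 6 → ZMod 3} {v : V} :
    v ∈ wsp w ρ lam ↔ ∀ i, ρ (xP i) v = w ^ (lam i).val • v := Iff.rfl

/-- The fusion of `P18` in `A_18` is realised by linear automorphisms of `V`, simultaneously for the elements of
a subgroup. -/
def Fus (ρ : ↥P18 →* Module.End K V) : Prop :=
  ∀ (a : ↥(alternatingGroup (Fin 18))) (Q : Subgroup ↥(alternatingGroup (Fin 18))) (hQ : Q ≤ P18)
    (hQ' : ∀ q ∈ Q, a * q * a⁻¹ ∈ P18),
    ∃ h : V ≃ₗ[K] V, ∀ q (hq : q ∈ Q) (v : V), h (ρ ⟨q, hQ hq⟩ v) = ρ ⟨a * q * a⁻¹, hQ' q hq⟩ (h v)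

end

/-! ### `P18` is a 3-group -/

theorem x_comm (i j : Fin 6) : x i * x j = x j * x i := by
  apply Subtype.ext
  have : ∀ i j : Fin 6, xp i * xp j = xp j * xp i := by decide +kernel
  exact this i j

theorem x_cube (i : Fin 6) : x i ^ 3 = 1 := by
  apply Subtype.ext
  have : ∀ i : Fin 6, xp i ^ 3 = 1 := by decide +kernel
  exact this i

theorem c_nine : c ^ 9 = 1 := by
  apply Subtype.ext
  have : cp ^ 9 = 1 := by decide +kernel
  exact this

theorem d_nine : d ^ 9 = 1 := by
  apply Subtype.ext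
  have : dp ^ 9 = 1 := by decide +kernel
  exact this

theorem cd_comm : c * d = d * c := by
  apply Subtype.ext
  have : cp * dp = dp * cp := by decide +kernel
  exact this

/-- Conjugation by `c` on the `x i`. -/
def sc : Fin 6 → Fin 6 := ![1, 2, 0, 3, 4, 5]

/-- Conjugation by `d` on the `x i`. -/
def sd : Fin 6 → Fin 6 := ![0, 1, 2, 4, 5, 3]

theorem c_x (i : Fin 6) : c * x i * c⁻¹ = x (sc i) := by
  apply Subtype.ext
  have : ∀ i : Fin 6, cp * xp i * cp⁻¹ = xp (sc i) := by decide +kernel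
  exact this i

theorem d_x (i : Fin 6) : d * x i * d⁻¹ = x (sd i) := by
  apply Subtype.ext
  have : ∀ i : Fin 6, dp * xp i * dp⁻¹ = xp (sd i) := by decide +kernel
  exact this i

theorem c_cube : c ^ 3 = x 0 * x 1 * x 2 := by
  apply Subtype.ext
  have : cp ^ 3 = xp 0 * xp 1 * xp 2 := by decide +kernel
  exact this

theorem d_cube : d ^ 3 = x 3 * x 4 * x 5 := by
  apply Subtype.ext
  have : dp ^ 3 = xp 3 * xp 4 * xp 5 := by decide +kernel
  exact this

/-- The elementary abelian group `<x 0, ..., x 5>`. -/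
def E18 : Subgroup ↥(alternatingGroup (Fin 18)) := Subgroup.closure (Set.range x)

theorem isPGroup_E18 : IsPGroup 3 ↥E18 := by
  have hc : ∀ g ∈ E18, ∀ h ∈ E18, g * h = h * g := by
    intro g hg h hh
    induction hg, hh using Subgroup.closure_induction₂ with
    | mem a b ha hb =>
      obtain ⟨i, rfl⟩ := ha
      obtain ⟨j, rfl⟩ := hb
      exact x_comm i j
    | one_left a _ => simp
    | one_right a _ => simp
    | mul_left a b e _ _ _ h1 h2 => rw [mul_assoc, h2, ← mul_assoc, h1, mul_assoc]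
    | mul_right a b e _ _ _ h1 h2 => rw [← mul_assoc, h1, mul_assoc, h2, mul_assoc]
    | inv_left a b _ _ h1 => exact (Commute.inv_left (show Commute a b from h1)).eq
    | inv_right a b _ _ h1 => exact (Commute.inv_right (show Commute a b from h1)).eq
  rintro ⟨g, hg⟩
  refine ⟨1, Subtype.ext ?_⟩
  show g ^ (3 ^ 1) = 1
  rw [pow_one]
  have : ∀ g ∈ E18, g ∈ E18 ∧ g ^ 3 = 1 := by
    intro g hg
    induction hg using Subgroup.closure_induction with
    | mem a ha =>
      obtain ⟨i, rfl⟩ := ha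
      exact ⟨Subgroup.subset_closure ⟨i, rfl⟩, x_cube i⟩
    | one => exact ⟨one_mem _, one_pow _⟩
    | mul a b ha hb h1 h2 =>
      exact ⟨mul_mem h1.1 h2.1, by rw [Commute.mul_pow (hc a h1.1 b h2.1), h1.2, h2.2, one_mul]⟩
    | inv a ha h1 => exact ⟨inv_mem h1.1, by rw [inv_pow, h1.2, inv_one]⟩
  exact (this g hg).2

theorem isPGroup_zpowers {g : ↥(alternatingGroup (Fin 18))} (hg : g ^ 9 = 1) : IsPGroup 3 ↥(Subgroup.zpowers g) := by
  rintro ⟨_, k, rfl⟩
  refine ⟨2, Subtype.ext ?_⟩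
  show (g ^ k) ^ (3 ^ 2) = 1
  rw [show (3 ^ 2 : ℕ) = 9 from rfl, ← zpow_natCast, ← zpow_mul, mul_comm, zpow_mul, zpow_natCast, hg, one_zpow]

theorem mem_normalizer_closure {G ι : Type*} [Group G] (x : ι → G) (c : G) (s : ι → ι)
    (hs : Function.Surjective s) (h : ∀ i, c * x i * c⁻¹ = x (s i)) :
    c ∈ Subgroup.normalizer (Subgroup.closure (Set.range x) : Set G) := by
  have h1 : (Subgroup.closure (Set.range x)).map (MulAut.conj c).toMonoidHom ≤ Subgroup.closure (Set.range x) := by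
    rw [MonoidHom.map_closure, Subgroup.closure_le]
    rintro _ ⟨_, ⟨i, rfl⟩, rfl⟩
    refine Subgroup.subset_closure ⟨s i, ?_⟩
    simp [← h]
  have h2 : (Subgroup.closure (Set.range x)).map (MulAut.conj c⁻¹).toMonoidHom ≤ Subgroup.closure (Set.range x) := by
    rw [MonoidHom.map_closure, Subgroup.closure_le]
    rintro _ ⟨_, ⟨i, rfl⟩, rfl⟩
    obtain ⟨j, rfl⟩ := hs i
    refine Subgroup.subset_closure ⟨j, ?_⟩
    simp only [MulEquiv.coe_toMonoidHom, MulAut.conj_apply, inv_inv, ← h]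
    group
  rw [Subgroup.mem_normalizer_iff]
  intro g
  constructor
  · intro hg; exact h1 ⟨g, hg, rfl⟩
  · intro hg
    have := h2 ⟨_, hg, rfl⟩
    simpa [mul_assoc] using this

theorem mem_normalizer_sup {G : Type*} [Group G] {E : Subgroup G} {c d : G}
    (hd : d ∈ Subgroup.normalizer (E : Set G)) (hcd : c * d = d * c) :
    d ∈ Subgroup.normalizer ((E ⊔ Subgroup.zpowers c : Subgroup G) : Set G) := by
  have hmap : (E ⊔ Subgroup.zpowers c).map (MulAut.conj d).toMonoidHom = E ⊔ Subgroup.zpowers c := by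
    rw [Subgroup.map_sup, MonoidHom.map_zpowers]
    congr 1
    · apply le_antisymm
      · rintro _ ⟨g, hg, rfl⟩
        exact (Subgroup.mem_normalizer_iff.1 hd g).1 hg
      · intro g hg
        refine ⟨d⁻¹ * g * d, ?_, by simp [mul_assoc]⟩
        have := (Subgroup.mem_normalizer_iff.1 (inv_mem hd) g).1 hg
        simpa using this
    · have : (MulAut.conj d).toMonoidHom c = c := by
        simp only [MulEquiv.coe_toMonoidHom, MulAut.conj_apply]
        rw [← hcd, mul_inv_cancel_right]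
      rw [this]
  rw [Subgroup.mem_normalizer_iff]
  intro g
  constructor
  · intro hg
    have : d * g * d⁻¹ ∈ (E ⊔ Subgroup.zpowers c).map (MulAut.conj d).toMonoidHom := ⟨g, hg, rfl⟩
    rwa [hmap] at this
  · intro hg
    rw [← hmap] at hg
    obtain ⟨g', hg', he⟩ := hg
    have : g' = g := by
      simp only [MulEquiv.coe_toMonoidHom, MulAut.conj_apply] at he
      exact mul_left_cancel (mul_right_cancel he)
    exact this ▸ hg'

theorem c_mem_normalizer : c ∈ Subgroup.normalizer (E18 : Set ↥(alternatingGroup (Fin 18))) :=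
  mem_normalizer_closure x c sc (by decide) c_x

theorem d_mem_normalizer : d ∈ Subgroup.normalizer (E18 : Set ↥(alternatingGroup (Fin 18))) :=
  mem_normalizer_closure x d sd (by decide) d_x

theorem isPGroup_P18 : IsPGroup 3 ↥P18 := by
  have h1 : IsPGroup 3 ↥(E18 ⊔ Subgroup.zpowers c) :=
    IsPGroup.to_sup_of_normal_left' isPGroup_E18 (isPGroup_zpowers c_nine) (by
      rw [Subgroup.zpowers_le]; exact c_mem_normalizer)
  have h2 : IsPGroup 3 ↥((E18 ⊔ Subgroup.zpowers c) ⊔ Subgroup.zpowers d) := by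
    refine IsPGroup.to_sup_of_normal_left' h1 (isPGroup_zpowers d_nine) ?_
    rw [Subgroup.zpowers_le]
    exact mem_normalizer_sup d_mem_normalizer cd_comm
  exact h2.to_le (P18_le
    (fun i => Subgroup.mem_sup_left (Subgroup.mem_sup_left (Subgroup.subset_closure ⟨i, rfl⟩)))
    (Subgroup.mem_sup_left (Subgroup.mem_sup_right (Subgroup.mem_zpowers c)))
    (Subgroup.mem_sup_right (Subgroup.mem_zpowers d)))

end Cfsg.Agent.H224.E8
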