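import Cfsg.Agent.H224.E8Red

/-!
# Part T3b of S2654: weight spaces and fusion (helper224)
-/

set_option autoImplicit false

namespace Cfsg.Agent.H224.E8

open Module

variable {K V : Type*} [Field K] [AddCommGroup V] [Module K V]

/-- The common eigenspace of a family of elements. -/
def jeig (ρ : ↥P18 →* Module.End K V) {J : Type} (q : J → ↥P18) (z : J → K) : Submodule K V where
  carrier := {v | ∀ j, ρ (q j) v = z j • v}
  add_mem' := by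
    intro a b ha hb j
    rw [map_add, ha j, hb j, smul_add]
  zero_mem' := by
    intro j
    rw [map_zero, smul_zero]
  smul_mem' := by
    intro r a ha j
    rw [map_smul, ha j, smul_comm]

theorem jeig_fus {ρ : ↥P18 →* Module.End K V} (hfus : Fus ρ) {J : Type} (a : ↥(alternatingGroup (Fin 18)))
    (q q' : J → ↥P18) (z : J → K) (h : ∀ j, a * (q j : ↥(alternatingGroup (Fin 18))) * a⁻¹ = q' j) :
    finrank K (jeig ρ q z) = finrank K (jeig ρ q' z) := by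
  set Q : Subgroup ↥(alternatingGroup (Fin 18)) :=
    Subgroup.closure (Set.range fun j => (q j : ↥(alternatingGroup (Fin 18)))) with hQdef
  have hQ : Q ≤ P18 := by
    rw [hQdef, Subgroup.closure_le]
    rintro _ ⟨j, rfl⟩
    exact (q j).2
  have hQ' : ∀ g ∈ Q, a * g * a⁻¹ ∈ P18 := by
    have : Q ≤ P18.comap (MulAut.conj a).toMonoidHom := by
      rw [hQdef, Subgroup.closure_le]
      rintro _ ⟨j, rfl⟩
      show a * _ * a⁻¹ ∈ P18
      rw [h j]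
      exact (q' j).2
    exact fun g hg => this hg
  obtain ⟨f, hf⟩ := hfus a Q hQ hQ'
  have hf' : ∀ j (v : V), f (ρ (q j) v) = ρ (q' j) (f v) := by
    intro j v
    have h1 := hf (q j) (Subgroup.subset_closure ⟨j, rfl⟩) v
    have h2 : (⟨a * (q j : ↥(alternatingGroup (Fin 18))) * a⁻¹,
      hQ' _ (Subgroup.subset_closure ⟨j, rfl⟩)⟩ : ↥P18) = q' j := Subtype.ext (h j)
    rw [h2] at h1
    exact h1
  have hmap : (jeig ρ q z).map (f : V →ₗ[K] V) = jeig ρ q' z := by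
    apply le_antisymm
    · rintro _ ⟨v, hv, rfl⟩ j
      show ρ (q' j) (f v) = z j • f v
      rw [← hf', hv j, map_smul]
    · intro v hv
      refine ⟨f.symm v, fun j => ?_, f.apply_symm_apply v⟩
      apply f.injective
      rw [hf', map_smul, f.apply_symm_apply, hv j]
  rw [← hmap]
  exact (LinearEquiv.finrank_map_eq f _).symm

variable {w : K}

/-- Weight spaces, with weights in `ℕ`. -/
def WN (w : K) (ρ : ↥P18 →* Module.End K V) (m : Fin 6 → ℕ) : Submodule K V :=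
  jeig ρ xP fun i => w ^ m i

theorem mem_WN {ρ : ↥P18 →* Module.End K V} {m : Fin 6 → ℕ} {v : V} :
    v ∈ WN w ρ m ↔ ∀ i, ρ (xP i) v = w ^ m i • v := Iff.rfl

theorem pow_mod (hw : IsPrimitiveRoot w 3) (n : ℕ) : w ^ n = w ^ (n % 3) := by
  conv_lhs => rw [← Nat.div_add_mod n 3, pow_add, pow_mul, w_cube hw, one_pow, one_mul]

theorem pow_congr (hw : IsPrimitiveRoot w 3) {n m : ℕ} (h : n % 3 = m % 3) : w ^ n = w ^ m := by
  rw [pow_mod hw n, pow_mod hw m, h]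

theorem WN_eq_wsp (hw : IsPrimitiveRoot w 3) (ρ : ↥P18 →* Module.End K V) (m : Fin 6 → ℕ) :
    WN w ρ m = wsp w ρ (fun i => (m i : ZMod 3)) := by
  ext v
  rw [mem_WN, mem_wsp]
  refine forall_congr' fun i => ?_
  rw [ZMod.val_natCast, ← pow_mod hw]

/-- The dimension of the eigenspace of `γ` with eigenvalue `z` on a weight space. -/
noncomputable def NN (w : K) (ρ : ↥P18 →* Module.End K V) (γ : ↥P18) (m : Fin 6 → ℕ) (z : K) : ℕ :=
  finrank K (WN w ρ m ⊓ eig (ρ γ) z : Submodule K V)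

theorem pow_act (hw : IsPrimitiveRoot w 3) {ρ : ↥P18 →* Module.End K V} {p : ↥P18} (hp : p ^ 3 = 1) {e : ℕ}
    (he : e = 1 ∨ e = 2) (m : ℕ) (v : V) : ρ (p ^ e) v = w ^ m • v ↔ ρ p v = w ^ (e * m) • v := by
  rcases he with rfl | rfl
  · rw [pow_one, one_mul]
  · rw [sq, act_mul]
    constructor
    · intro h
      have h1 := congrArg (fun u => ρ p u) h
      simp only [act_cube ρ hp, map_smul] at h1
      have h2 : w ^ (2 * m) • v = w ^ (2 * m) • (w ^ m • ρ p v) := congrArg _ h1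
      rw [h2, smul_smul, ← pow_add, pow_congr hw (show (2 * m + m) % 3 = 0 % 3 by omega), pow_zero, one_smul]
    · intro h
      rw [h, map_smul, h, smul_smul, ← pow_add]
      congr 1
      exact pow_congr hw (by omega)

/-- Fusion for `NN`. -/
theorem NN_fus (hw : IsPrimitiveRoot w 3) {ρ : ↥P18 →* Module.End K V} (hfus : Fus ρ)
    (L : List (Fin 18 × Fin 18)) (hL : ∀ p ∈ L, p.1 ≠ p.2) (hL2 : Even L.length) {γ γ' : ↥P18}
    (hγ : sw L * (γ : ↥(alternatingGroup (Fin 18))).1 * (sw L)⁻¹ = (γ' : ↥(alternatingGroup (Fin 18))).1)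
    (π : Fin 6 → Fin 6) (hπs : Function.Surjective π) (ε : Fin 6 → ℕ) (hε : ∀ i, ε i = 1 ∨ ε i = 2)
    (hπ : ∀ i, sw L * xp i * (sw L)⁻¹ = xp (π i) ^ (ε i)) (m m' : Fin 6 → ℕ)
    (hm : ∀ i, m' (π i) % 3 = (ε i * m i) % 3) (z : K) :
    NN w ρ γ m z = NN w ρ γ' m' z := by
  have h1 : (WN w ρ m ⊓ eig (ρ γ) z : Submodule K V) =
      jeig ρ (fun o : Option (Fin 6) => o.elim γ xP) (fun o => o.elim z fun i => w ^ m i) := by
    ext v
    constructor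
    · rintro ⟨h1, h2⟩ (_ | i)
      · exact h2
      · exact h1 i
    · intro h
      exact ⟨fun i => h (some i), h none⟩
  have h2 : (WN w ρ m' ⊓ eig (ρ γ') z : Submodule K V) =
      jeig ρ (fun o : Option (Fin 6) => o.elim γ' fun i => xP (π i) ^ (ε i))
        (fun o => o.elim z fun i => w ^ m i) := by
    ext v
    constructor
    · rintro ⟨h1, h2⟩ (_ | i)
      · exact h2
      · show ρ (xP (π i) ^ (ε i)) v = w ^ m i • v
        rw [pow_act hw (xP_cube _) (hε i), ← pow_congr hw (hm i)]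
        exact h1 (π i)
    · intro h
      refine ⟨fun j => ?_, h none⟩
      obtain ⟨i, rfl⟩ := hπs j
      have h3 : ρ (xP (π i) ^ (ε i)) v = w ^ m i • v := h (some i)
      rw [pow_act hw (xP_cube _) (hε i), ← pow_congr hw (hm i)] at h3
      exact h3
  rw [NN, NN, h1, h2]
  refine jeig_fus hfus ⟨sw L, sw_mem L hL hL2⟩ _ _ _ ?_
  rintro (_ | i)
  · exact Subtype.ext hγ
  · apply Subtype.ext
    show sw L * xp i * (sw L)⁻¹ = _
    rw [hπ i]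
    rfl

/-- Fusion for single elements. -/
theorem eig_fus {ρ : ↥P18 →* Module.End K V} (hfus : Fus ρ)
    (L : List (Fin 18 × Fin 18)) (hL : ∀ p ∈ L, p.1 ≠ p.2) (hL2 : Even L.length) {γ γ' : ↥P18}
    (hγ : sw L * (γ : ↥(alternatingGroup (Fin 18))).1 * (sw L)⁻¹ = (γ' : ↥(alternatingGroup (Fin 18))).1)
    (z : K) : finrank K (⊤ ⊓ eig (ρ γ) z : Submodule K V) = finrank K (⊤ ⊓ eig (ρ γ') z : Submodule K V) := by
  have h1 : ∀ γ : ↥P18, (⊤ ⊓ eig (ρ γ) z : Submodule K V) = jeig ρ (fun _ : Unit => γ) (fun _ => z) := by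
    intro γ
    ext v
    exact ⟨fun h _ => h.2, fun h => ⟨trivial, h ()⟩⟩
  rw [h1, h1]
  exact jeig_fus hfus ⟨sw L, sw_mem L hL hL2⟩ _ _ _ (fun _ => Subtype.ext hγ)

theorem dd_fus {ρ : ↥P18 →* Module.End K V} (hfus : Fus ρ)
    (L : List (Fin 18 × Fin 18)) (hL : ∀ p ∈ L, p.1 ≠ p.2) (hL2 : Even L.length) {γ γ' : ↥P18}
    (hγ : sw L * (γ : ↥(alternatingGroup (Fin 18))).1 * (sw L)⁻¹ = (γ' : ↥(alternatingGroup (Fin 18))).1) :
    dd w ⊤ (ρ γ) = dd w ⊤ (ρ γ') := by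
  rw [dd, dd, eig_fus hfus L hL hL2 hγ, eig_fus hfus L hL hL2 hγ]

/-- The inverse of `γ`. -/
theorem NN_inv (hw : IsPrimitiveRoot w 3) (ρ : ↥P18 →* Module.End K V) (γ : ↥P18) (m : Fin 6 → ℕ) (k : ℕ) :
    NN w ρ γ⁻¹ m (w ^ k) = NN w ρ γ m (w ^ (2 * k)) := by
  have key : (eig (ρ γ⁻¹) (w ^ k) : Submodule K V) = eig (ρ γ) (w ^ (2 * k)) := by
   ext v
   show ρ γ⁻¹ v = w ^ k • v ↔ ρ γ v = w ^ (2 * k) • v
   constructor
   · intro h
     have h1 := congrArg (ρ γ) h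
     rw [act_inv', map_smul] at h1
     have h2 : w ^ (2 * k) • v = w ^ (2 * k) • (w ^ k • ρ γ v) := congrArg _ h1
     rw [h2, smul_smul, ← pow_add, pow_congr hw (show (2 * k + k) % 3 = 0 % 3 by omega), pow_zero, one_smul]
   · intro h
     have h1 := congrArg (ρ γ⁻¹) h
     rw [act_inv, map_smul] at h1
     have h2 : w ^ k • v = w ^ k • (w ^ (2 * k) • ρ γ⁻¹ v) := congrArg _ h1
     rw [h2, smul_smul, ← pow_add, pow_congr hw (show (k + 2 * k) % 3 = 0 % 3 by omega), pow_zero, one_smul]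
  rw [NN, NN, key]

theorem NN_congr (hw : IsPrimitiveRoot w 3) (ρ : ↥P18 →* Module.End K V) (γ : ↥P18) (m : Fin 6 → ℕ) {k l : ℕ}
    (h : k % 3 = l % 3) : NN w ρ γ m (w ^ k) = NN w ρ γ m (w ^ l) := by
  rw [pow_congr hw h]

/-! ### Evaluation of `dd` on the whole space -/

variable [FiniteDimensional K V]

omit [FiniteDimensional K V] in
theorem dd_shift (hw : IsPrimitiveRoot w 3) {ρ : ↥P18 →* Module.End K V} {g e : ↥P18} {m : Fin 6 → ℕ} {s : ℕ}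
    (he : ∀ v ∈ WN w ρ m, ρ e v = w ^ s • v) :
    dd w (WN w ρ m) (ρ (g * e)) = (NN w ρ g m (w ^ (2 * s)) : ℤ) - NN w ρ g m (w ^ (2 * s + 1)) := by
  have key : ∀ k : ℕ, (WN w ρ m ⊓ eig (ρ (g * e)) (w ^ k) : Submodule K V) =
      WN w ρ m ⊓ eig (ρ g) (w ^ (2 * s + k)) := by
    intro k
    ext v
    constructor
    · rintro ⟨h1, h2⟩
      refine ⟨h1, ?_⟩
      have h3 : ρ (g * e) v = w ^ k • v := h2
      rw [act_mul, he v h1, map_smul] at h3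
      show ρ g v = w ^ (2 * s + k) • v
      have h4 : w ^ (2 * s) • (w ^ s • ρ g v) = w ^ (2 * s) • (w ^ k • v) := congrArg _ h3
      rw [smul_smul, ← pow_add, pow_congr hw (show (2 * s + s) % 3 = 0 % 3 by omega), pow_zero, one_smul,
        smul_smul, ← pow_add] at h4
      exact h4
    · rintro ⟨h1, h2⟩
      refine ⟨h1, ?_⟩
      have h3 : ρ g v = w ^ (2 * s + k) • v := h2
      show ρ (g * e) v = w ^ k • v
      rw [act_mul, he v h1, map_smul, h3, smul_smul, ← pow_add,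
        pow_congr hw (show (s + (2 * s + k)) % 3 = k % 3 by omega)]
  have h0 := key 0
  have h1 := key 1
  rw [pow_zero, add_zero] at h0
  rw [pow_one] at h1
  rw [dd, h0, h1]
  rfl

omit [FiniteDimensional K V] in
theorem inf_inv {ρ : ↥P18 →* Module.End K V} {l l' : Fin 6} {z : K} {S : Submodule K V}
    (hS : ∀ v ∈ S, ρ (xP l) v ∈ S) :
    ∀ v ∈ (S ⊓ eig (ρ (xP l')) z : Submodule K V), ρ (xP l) v ∈ (S ⊓ eig (ρ (xP l')) z : Submodule K V) := by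
  rintro v ⟨h1, h2⟩
  refine ⟨hS v h1, ?_⟩
  show ρ (xP l') (ρ (xP l) v) = z • ρ (xP l) v
  rw [act_eq ρ (xP_comm l' l) v, show ρ (xP l') v = z • v from h2, map_smul]

/-- One block. -/
theorem dd_one (hw : IsPrimitiveRoot w 3) {ρ : ↥P18 →* Module.End K V} {γ : ↥P18} (h0 : γ * xP 0 = xP 1 * γ)
    (h1 : γ * xP 1 = xP 2 * γ) (h2 : γ * xP 2 = xP 0 * γ) (h3 : γ * xP 3 = xP 3 * γ) (h4 : γ * xP 4 = xP 4 * γ)
    (h5 : γ * xP 5 = xP 5 * γ) :
    dd w ⊤ (ρ γ) = ∑ t ∈ Finset.range 3, ∑ a ∈ Finset.range 3, ∑ b ∈ Finset.range 3, ∑ e ∈ Finset.range 3,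
      dd w (WN w ρ ![t, t, t, a, b, e]) (ρ γ) := by
  have hcomm : ∀ (i j : Fin 6) (v : V), ρ (xP i) (ρ (xP j) v) = ρ (xP j) (ρ (xP i) v) := fun i j v =>
    act_eq ρ (xP_comm i j) v
  rw [dd_block ρ hw (S := ⊤) h0 h1 h2 (fun _ _ => trivial) (fun _ _ => trivial) (fun _ _ => trivial) (fun _ _ => trivial)]
  have hinv : ∀ l : Fin 6, ∀ v ∈ (⊤ ⊓ SE ρ 0 1 2 : Submodule K V), ρ (xP l) v ∈ (⊤ ⊓ SE ρ 0 1 2 : Submodule K V) := by
    rintro l v ⟨-, hv1, hv2⟩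
    exact ⟨trivial, by rw [hcomm 1 l, hv1, hcomm l 0], by rw [hcomm 2 l, hv2, hcomm l 0]⟩
  have hg : ∀ v ∈ (⊤ ⊓ SE ρ 0 1 2 : Submodule K V), ρ γ v ∈ (⊤ ⊓ SE ρ 0 1 2 : Submodule K V) := by
    rintro v ⟨-, hv1, hv2⟩
    have e0 : ρ (xP 1) (ρ γ v) = ρ γ (ρ (xP 0) v) := (act_eq ρ h0 v).symm
    have e1 : ρ (xP 2) (ρ γ v) = ρ γ (ρ (xP 1) v) := (act_eq ρ h1 v).symm
    have e2 : ρ (xP 0) (ρ γ v) = ρ γ (ρ (xP 2) v) := (act_eq ρ h2 v).symm
    exact ⟨trivial, by rw [e0, e2, hv2], by rw [e1, e2, hv1, hv2]⟩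
  rw [dd_split hw (X := ρ (xP 0)) (hinv 0) (fun v _ => act_cube ρ (xP_cube 0) v)
    (fun v hv => by rw [act_eq ρ h0 v, (hg v hv).2.1])]
  refine Finset.sum_congr rfl fun t _ => ?_
  rw [dd_split hw (X := ρ (xP 3)) (inf_inv (hinv 3)) (fun v _ => act_cube ρ (xP_cube 3) v)
    (fun v _ => act_eq ρ h3 v)]
  refine Finset.sum_congr rfl fun a _ => ?_
  rw [dd_split hw (X := ρ (xP 4)) (inf_inv (inf_inv (hinv 4))) (fun v _ => act_cube ρ (xP_cube 4) v)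
    (fun v _ => act_eq ρ h4 v)]
  refine Finset.sum_congr rfl fun b _ => ?_
  rw [dd_split hw (X := ρ (xP 5)) (inf_inv (inf_inv (inf_inv (hinv 5)))) (fun v _ => act_cube ρ (xP_cube 5) v)
    (fun v _ => act_eq ρ h5 v)]
  refine Finset.sum_congr rfl fun e _ => ?_
  congr 1
  ext v
  constructor
  · rintro ⟨⟨⟨⟨⟨-, hv1, hv2⟩, hv0⟩, hv3⟩, hv4⟩, hv5⟩
    have k0 : ρ (xP 0) v = w ^ t • v := hv0
    intro i
    fin_cases i
    · exact k0
    · exact hv1.trans k0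
    · exact hv2.trans k0
    · exact hv3
    · exact hv4
    · exact hv5
  · intro hv
    have k0 : ρ (xP 0) v = w ^ t • v := hv 0
    have k1 : ρ (xP 1) v = w ^ t • v := hv 1
    have k2 : ρ (xP 2) v = w ^ t • v := hv 2
    exact ⟨⟨⟨⟨⟨trivial, k1.trans k0.symm, k2.trans k0.symm⟩, hv 0⟩, hv 3⟩, hv 4⟩, hv 5⟩

/-- Two blocks. -/
theorem dd_two (hw : IsPrimitiveRoot w 3) {ρ : ↥P18 →* Module.End K V} {γ : ↥P18} (h0 : γ * xP 0 = xP 1 * γ)
    (h1 : γ * xP 1 = xP 2 * γ) (h2 : γ * xP 2 = xP 0 * γ) (h3 : γ * xP 3 = xP 4 * γ) (h4 : γ * xP 4 = xP 5 * γ)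
    (h5 : γ * xP 5 = xP 3 * γ) :
    dd w ⊤ (ρ γ) = ∑ t ∈ Finset.range 3, ∑ a ∈ Finset.range 3, dd w (WN w ρ ![t, t, t, a, a, a]) (ρ γ) := by
  have hcomm : ∀ (i j : Fin 6) (v : V), ρ (xP i) (ρ (xP j) v) = ρ (xP j) (ρ (xP i) v) := fun i j v =>
    act_eq ρ (xP_comm i j) v
  have hinv : ∀ l : Fin 6, ∀ v ∈ (⊤ ⊓ SE ρ 0 1 2 : Submodule K V), ρ (xP l) v ∈ (⊤ ⊓ SE ρ 0 1 2 : Submodule K V) := by
    rintro l v ⟨-, hv1, hv2⟩
    exact ⟨trivial, by rw [hcomm 1 l, hv1, hcomm l 0], by rw [hcomm 2 l, hv2, hcomm l 0]⟩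
  have hinv3 : ∀ v ∈ (⊤ ⊓ SE ρ 0 1 2 : Submodule K V), ρ (xP 3)⁻¹ v ∈ (⊤ ⊓ SE ρ 0 1 2 : Submodule K V) := by
    intro v hv
    have h6 : (xP 3)⁻¹ = xP 3 * xP 3 := by
      rw [inv_eq_iff_mul_eq_one, ← mul_assoc, ← sq, ← pow_succ, xP_cube]
    rw [h6, act_mul]
    exact hinv 3 _ (hinv 3 v hv)
  rw [dd_block ρ hw (S := ⊤) h0 h1 h2 (fun _ _ => trivial) (fun _ _ => trivial) (fun _ _ => trivial) (fun _ _ => trivial),
    dd_block ρ hw h3 h4 h5 (hinv 3) hinv3 (hinv 4) (hinv 5)]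
  have hinv' : ∀ l : Fin 6, ∀ v ∈ ((⊤ ⊓ SE ρ 0 1 2) ⊓ SE ρ 3 4 5 : Submodule K V),
      ρ (xP l) v ∈ ((⊤ ⊓ SE ρ 0 1 2) ⊓ SE ρ 3 4 5 : Submodule K V) := by
    rintro l v ⟨hv, hv4, hv5⟩
    exact ⟨hinv l v hv, by rw [hcomm 4 l, hv4, hcomm l 3], by rw [hcomm 5 l, hv5, hcomm l 3]⟩
  have hg : ∀ v ∈ ((⊤ ⊓ SE ρ 0 1 2) ⊓ SE ρ 3 4 5 : Submodule K V),
      ρ γ v ∈ ((⊤ ⊓ SE ρ 0 1 2) ⊓ SE ρ 3 4 5 : Submodule K V) := by
    rintro v ⟨⟨-, hv1, hv2⟩, hv4, hv5⟩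
    have e0 : ρ (xP 1) (ρ γ v) = ρ γ (ρ (xP 0) v) := (act_eq ρ h0 v).symm
    have e1 : ρ (xP 2) (ρ γ v) = ρ γ (ρ (xP 1) v) := (act_eq ρ h1 v).symm
    have e2 : ρ (xP 0) (ρ γ v) = ρ γ (ρ (xP 2) v) := (act_eq ρ h2 v).symm
    have e3 : ρ (xP 4) (ρ γ v) = ρ γ (ρ (xP 3) v) := (act_eq ρ h3 v).symm
    have e4 : ρ (xP 5) (ρ γ v) = ρ γ (ρ (xP 4) v) := (act_eq ρ h4 v).symm
    have e5 : ρ (xP 3) (ρ γ v) = ρ γ (ρ (xP 5) v) := (act_eq ρ h5 v).symm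
    exact ⟨⟨trivial, by rw [e0, e2, hv2], by rw [e1, e2, hv1, hv2]⟩, by rw [e3, e5, hv5],
      by rw [e4, e5, hv4, hv5]⟩
  rw [dd_split hw (X := ρ (xP 0)) (hinv' 0) (fun v _ => act_cube ρ (xP_cube 0) v)
    (fun v hv => by rw [act_eq ρ h0 v, (hg v hv).1.2.1])]
  refine Finset.sum_congr rfl fun t _ => ?_
  rw [dd_split hw (X := ρ (xP 3)) (inf_inv (hinv' 3)) (fun v _ => act_cube ρ (xP_cube 3) v)
    (fun v hv => by rw [act_eq ρ h3 v, (hg v hv.1).2.1])]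
  refine Finset.sum_congr rfl fun a _ => ?_
  congr 1
  ext v
  constructor
  · rintro ⟨⟨⟨⟨-, hv1, hv2⟩, hv4, hv5⟩, hv0⟩, hv3⟩
    have k0 : ρ (xP 0) v = w ^ t • v := hv0
    have k3 : ρ (xP 3) v = w ^ a • v := hv3
    intro i
    fin_cases i
    · exact k0
    · exact hv1.trans k0
    · exact hv2.trans k0
    · exact k3
    · exact hv4.trans k3
    · exact hv5.trans k3
  · intro hv
    have k0 : ρ (xP 0) v = w ^ t • v := hv 0
    have k1 : ρ (xP 1) v = w ^ t • v := hv 1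
    have k2 : ρ (xP 2) v = w ^ t • v := hv 2
    have k3 : ρ (xP 3) v = w ^ a • v := hv 3
    have k4 : ρ (xP 4) v = w ^ a • v := hv 4
    have k5 : ρ (xP 5) v = w ^ a • v := hv 5
    exact ⟨⟨⟨⟨trivial, k1.trans k0.symm, k2.trans k0.symm⟩, k4.trans k3.symm, k5.trans k3.symm⟩, hv 0⟩, hv 3⟩

end Cfsg.Agent.H224.E8
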