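import Cfsg.Agent.H224.E8Defs
import Mathlib.LinearAlgebra.Eigenspace.Basic
import Mathlib.LinearAlgebra.Dimension.Constructions
import Mathlib.Tactic.FieldSimp
import Mathlib.Tactic.LinearCombination
import Mathlib.Tactic.Module

/-!
# Linear algebra for part T3b of S2654 (helper224)
-/

set_option autoImplicit false

namespace Cfsg.Agent.H224.E8

open Module

variable {K V : Type*} [Field K] [AddCommGroup V] [Module K V]

/-- The eigenspace, as the set of `v` with `X v = z v`. -/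
def eig (X : Module.End K V) (z : K) : Submodule K V where
  carrier := {v | X v = z • v}
  add_mem' := by
    intro a b ha hb
    show X (a + b) = z • (a + b)
    rw [map_add, smul_add, show X a = z • a from ha, show X b = z • b from hb]
  zero_mem' := by show X 0 = z • 0; rw [map_zero, smul_zero]
  smul_mem' := by
    intro r a ha
    show X (r • a) = z • (r • a)
    rw [map_smul, show X a = z • a from ha, smul_comm]

theorem mem_eig {X : Module.End K V} {z : K} {v : V} : v ∈ eig X z ↔ X v = z • v := Iff.rfl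

variable {w : K}

theorem w_cube (hw : IsPrimitiveRoot w 3) : w ^ 3 = 1 := hw.pow_eq_one

theorem w_sum (hw : IsPrimitiveRoot w 3) : 1 + w + w ^ 2 = 0 := by
  have h1 : w ≠ 1 := hw.ne_one (by norm_num)
  have h2 : (w - 1) * (1 + w + w ^ 2) = 0 := by linear_combination w_cube hw
  exact (mul_eq_zero.1 h2).resolve_left (sub_ne_zero.2 h1)

theorem three_ne (hw : IsPrimitiveRoot w 3) : (3 : K) ≠ 0 := by
  intro h
  have h1 := w_sum hw
  have h2 : (w - 1) ^ 2 = 0 := by linear_combination h1 - w * h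
  exact hw.ne_one (by norm_num) (sub_eq_zero.1 (pow_eq_zero_iff (by norm_num) |>.1 h2))

/-- The projection onto the eigenspace of `X` with eigenvalue `z`, `z ^ 3 = 1`. -/
def prj (X : Module.End K V) (z : K) (v : V) : V := (3 : K)⁻¹ • (v + z ^ 2 • X v + z • X (X v))

variable [FiniteDimensional K V]

/-- Splitting of an invariant subspace by an operator whose cube is the identity. -/
theorem split3 (hw : IsPrimitiveRoot w 3) {X : Module.End K V} {S : Submodule K V} (hS : ∀ v ∈ S, X v ∈ S)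
    (h3 : ∀ v ∈ S, X (X (X v)) = v) :
    finrank K S = ∑ k ∈ Finset.range 3, finrank K (S ⊓ eig X (w ^ k) : Submodule K V) := by
  have hc := w_cube hw
  have hs := w_sum hw
  have h30 := three_ne hw
  -- membership of the projections
  have hmem : ∀ z : K, z ^ 3 = 1 → ∀ v ∈ S, prj X z v ∈ S ⊓ eig X z := by
    intro z hz v hv
    refine ⟨S.smul_mem _ (S.add_mem (S.add_mem hv (S.smul_mem _ (hS v hv))) (S.smul_mem _ (hS _ (hS v hv)))), ?_⟩
    show X _ = _
    rw [prj, map_smul, map_add, map_add, map_smul, map_smul, h3 v hv, smul_comm z]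
    congr 1
    rw [smul_add, smul_add, smul_smul, smul_smul, show z * z ^ 2 = 1 by rw [← hz]; ring, one_smul,
      show z * z = z ^ 2 by ring]
    abel
  have hfix : ∀ z : K, z ^ 3 = 1 → ∀ v, X v = z • v → prj X z v = v := by
    intro z hz v hv
    have h2 : v + z ^ 2 • z • v + z • z • z • v = (3 : K) • v := by
      rw [show v + z ^ 2 • z • v + z • z • z • v = (1 + z ^ 3 + z ^ 3) • v by module, hz]
      module
    rw [prj, hv, map_smul, hv, h2, smul_smul, inv_mul_cancel₀ h30, one_smul]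
  have hzero : ∀ z z' : K, z ^ 3 = 1 → z' ^ 3 = 1 → z ≠ z' → ∀ v, X v = z' • v → prj X z v = 0 := by
    intro z z' hz hz' hne v hv
    have h1 : z ^ 2 + z * z' + z' ^ 2 = 0 := by
      have h2 : (z - z') * (z ^ 2 + z * z' + z' ^ 2) = 0 := by linear_combination hz - hz'
      exact (mul_eq_zero.1 h2).resolve_left (sub_ne_zero.2 hne)
    have h2 : v + z ^ 2 • z' • v + z • z' • z' • v = (1 + z ^ 2 * z' + z * z' ^ 2) • v := by module
    rw [prj, hv, map_smul, hv, h2, show 1 + z ^ 2 * z' + z * z' ^ 2 = 0 by linear_combination z' * h1 - hz',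
      zero_smul, smul_zero]
  let f : S →ₗ[K] ((S ⊓ eig X (w ^ 0) : Submodule K V) × (S ⊓ eig X (w ^ 1) : Submodule K V)) ×
      (S ⊓ eig X (w ^ 2) : Submodule K V) :=
    { toFun := fun v => ((⟨prj X (w ^ 0) v, hmem _ (by rw [← pow_mul, pow_mul', hc, one_pow]) v v.2⟩,
        ⟨prj X (w ^ 1) v, hmem _ (by rw [← pow_mul, pow_mul', hc, one_pow]) v v.2⟩),
        ⟨prj X (w ^ 2) v, hmem _ (by rw [← pow_mul, pow_mul', hc, one_pow]) v v.2⟩)
      map_add' := by
        intro a b
        have : ∀ z : K, prj X z ((a : V) + b) = prj X z a + prj X z b := by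
          intro z; simp only [prj, map_add, smul_add]; abel
        ext <;> exact this _
      map_smul' := by
        intro r a
        have : ∀ z : K, prj X z (r • (a : V)) = r • prj X z a := by
          intro z
          simp only [prj, map_smul, smul_add, smul_comm _ r]
        ext <;> exact this _ }
  let g : ((S ⊓ eig X (w ^ 0) : Submodule K V) × (S ⊓ eig X (w ^ 1) : Submodule K V)) ×
      (S ⊓ eig X (w ^ 2) : Submodule K V) →ₗ[K] S :=
    { toFun := fun p => ⟨(p.1.1 : V) + p.1.2 + p.2, S.add_mem (S.add_mem p.1.1.2.1 p.1.2.2.1) p.2.2.1⟩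
      map_add' := by
        intro a b
        apply Subtype.ext
        show ((a.1.1 : V) + b.1.1) + ((a.1.2 : V) + b.1.2) + ((a.2 : V) + b.2) = _ + _
        show _ = ((a.1.1 : V) + a.1.2 + a.2) + ((b.1.1 : V) + b.1.2 + b.2)
        abel
      map_smul' := by
        intro r a
        apply Subtype.ext
        show (r • (a.1.1 : V)) + (r • (a.1.2 : V)) + (r • (a.2 : V)) = r • ((a.1.1 : V) + a.1.2 + a.2)
        rw [smul_add, smul_add] }
  have h01 : (w ^ 0 : K) ≠ w ^ 1 := by simpa using (hw.ne_one (by norm_num)).symm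
  have h02 : (w ^ 0 : K) ≠ w ^ 2 := by
    intro h
    exact hw.pow_ne_one_of_pos_of_lt (by norm_num) (by norm_num) (by rw [← h, pow_zero] : w ^ 2 = 1)
  have h12 : (w ^ 1 : K) ≠ w ^ 2 := by
    intro h
    apply h01
    have h4 : w ≠ 0 := by rintro rfl; norm_num at hc
    have : w * 1 = w * w := by rw [mul_one, ← sq, ← h, pow_one]
    rw [pow_zero, pow_one]
    exact mul_left_cancel₀ h4 this
  have hp0 : (w ^ 0 : K) ^ 3 = 1 := by simp
  have hp1 : (w ^ 1 : K) ^ 3 = 1 := by simpa using hc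
  have hp2 : (w ^ 2 : K) ^ 3 = 1 := by rw [← pow_mul, pow_mul', hc, one_pow]
  have hfg : f.comp g = LinearMap.id := by
    apply LinearMap.ext
    rintro ⟨⟨⟨a, ha⟩, ⟨b, hb⟩⟩, ⟨e, he⟩⟩
    have hadd : ∀ z : K, ∀ u v : V, prj X z (u + v) = prj X z u + prj X z v := by
      intro z u v; simp only [prj, map_add, smul_add]; abel
    have e0 : prj X (w ^ 0) (a + b + e) = a := by
      rw [hadd, hadd, hfix _ hp0 a ha.2, hzero _ _ hp0 hp1 h01 b hb.2, hzero _ _ hp0 hp2 h02 e he.2, add_zero,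
        add_zero]
    have e1 : prj X (w ^ 1) (a + b + e) = b := by
      rw [hadd, hadd, hzero _ _ hp1 hp0 h01.symm a ha.2, hfix _ hp1 b hb.2, hzero _ _ hp1 hp2 h12 e he.2, add_zero,
        zero_add]
    have e2 : prj X (w ^ 2) (a + b + e) = e := by
      rw [hadd, hadd, hzero _ _ hp2 hp0 h02.symm a ha.2, hzero _ _ hp2 hp1 h12.symm b hb.2, hfix _ hp2 e he.2,
        add_zero, zero_add]
    refine Prod.ext (Prod.ext (Subtype.ext e0) (Subtype.ext e1)) (Subtype.ext e2)
  have hgf : g.comp f = LinearMap.id := by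
    apply LinearMap.ext
    rintro ⟨v, hv⟩
    apply Subtype.ext
    show prj X (w ^ 0) v + prj X (w ^ 1) v + prj X (w ^ 2) v = v
    simp only [prj]
    rw [← smul_add, ← smul_add]
    have h5 : v + (w ^ 0) ^ 2 • X v + w ^ 0 • X (X v) + (v + (w ^ 1) ^ 2 • X v + w ^ 1 • X (X v)) +
        (v + (w ^ 2) ^ 2 • X v + w ^ 2 • X (X v)) =
        (3 : K) • v + (1 + w ^ 2 + w ^ 4) • X v + (1 + w + w ^ 2) • X (X v) := by
      module
    rw [h5, hs, show 1 + w ^ 2 + w ^ 4 = 0 by linear_combination hs + w * hc, zero_smul, zero_smul, add_zero,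
      add_zero, smul_smul, inv_mul_cancel₀ h30, one_smul]
  have he := (LinearEquiv.ofLinearMap f g hfg hgf).finrank_eq
  rw [he, finrank_prod, finrank_prod, Finset.sum_range_succ, Finset.sum_range_succ, Finset.sum_range_one]

omit [FiniteDimensional K V] in
/-- Multiplication by an operator `T` which commutes with `g` up to a scalar permutes the eigenspaces of `g`. -/
theorem twist {g T T' : Module.End K V} {S : Submodule K V} (hT : ∀ v ∈ S, T v ∈ S) (hT' : ∀ v ∈ S, T' v ∈ S)
    (h1 : ∀ v ∈ S, T (T' v) = v) (h2 : ∀ v ∈ S, T' (T v) = v) {k k' : K} (hk : k' * k = 1)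
    (hgT : ∀ v ∈ S, g (T v) = k • T (g v)) (hgT' : ∀ v ∈ S, g (T' v) = k' • T' (g v)) (z : K) :
    finrank K (S ⊓ eig g z : Submodule K V) = finrank K (S ⊓ eig g (k * z) : Submodule K V) := by
  refine LinearEquiv.finrank_eq (LinearEquiv.ofLinear
    (T.restrict (p := (S ⊓ eig g z : Submodule K V)) (q := (S ⊓ eig g (k * z) : Submodule K V)) ?_)
    (T'.restrict (p := (S ⊓ eig g (k * z) : Submodule K V)) (q := (S ⊓ eig g z : Submodule K V)) ?_) ?_ ?_)
  · intro v hv
    refine ⟨hT v hv.1, ?_⟩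
    show g (T v) = _
    rw [hgT v hv.1, show g v = z • v from hv.2, map_smul, smul_smul]
  · intro v hv
    refine ⟨hT' v hv.1, ?_⟩
    show g (T' v) = _
    rw [hgT' v hv.1, show g v = (k * z) • v from hv.2, map_smul, smul_smul, ← mul_assoc, hk, one_mul]
  · apply LinearMap.ext
    rintro ⟨v, hv⟩
    exact Subtype.ext (h1 v hv.1)
  · apply LinearMap.ext
    rintro ⟨v, hv⟩
    exact Subtype.ext (h2 v hv.1)

/-! ### The difference of two multiplicities -/

/-- `dim ker (g - 1) - dim ker (g - w)` on the subspace `S`. -/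
noncomputable def dd (w : K) (S : Submodule K V) (g : Module.End K V) : ℤ :=
  (finrank K (S ⊓ eig g 1 : Submodule K V) : ℤ) - finrank K (S ⊓ eig g w : Submodule K V)

theorem dd_split (hw : IsPrimitiveRoot w 3) {X g : Module.End K V} {S : Submodule K V} (hS : ∀ v ∈ S, X v ∈ S)
    (h3 : ∀ v ∈ S, X (X (X v)) = v) (hg : ∀ v ∈ S, g (X v) = X (g v)) :
    dd w S g = ∑ k ∈ Finset.range 3, dd w (S ⊓ eig X (w ^ k)) g := by
  have key : ∀ z : K, finrank K (S ⊓ eig g z : Submodule K V) =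
      ∑ k ∈ Finset.range 3, finrank K ((S ⊓ eig X (w ^ k)) ⊓ eig g z : Submodule K V) := by
    intro z
    have h1 := split3 hw (X := X) (S := S ⊓ eig g z) (by
      intro v hv
      refine ⟨hS v hv.1, ?_⟩
      show g (X v) = z • X v
      rw [hg v hv.1, show g v = z • v from hv.2, map_smul]) (fun v hv => h3 v hv.1)
    rw [h1]
    refine Finset.sum_congr rfl fun k _ => ?_
    rw [inf_right_comm]
  rw [dd, key, key, Nat.cast_sum, Nat.cast_sum, ← Finset.sum_sub_distrib]
  rfl

omit [FiniteDimensional K V] in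
theorem dd_zero (hw : IsPrimitiveRoot w 3) {g T T' : Module.End K V} {S : Submodule K V}
    (hT : ∀ v ∈ S, T v ∈ S) (hT' : ∀ v ∈ S, T' v ∈ S)
    (h1 : ∀ v ∈ S, T (T' v) = v) (h2 : ∀ v ∈ S, T' (T v) = v) {k : ℕ} (hk : k = 1 ∨ k = 2)
    (hgT : ∀ v ∈ S, g (T v) = w ^ k • T (g v)) (hgT' : ∀ v ∈ S, g (T' v) = w ^ (2 * k) • T' (g v)) :
    dd w S g = 0 := by
  have hc := w_cube hw
  have hkk : w ^ (2 * k) * w ^ k = 1 := by
    rw [← pow_add, show 2 * k + k = 3 * k by ring, pow_mul, hc, one_pow]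
  rw [dd, sub_eq_zero, Nat.cast_inj]
  rcases hk with rfl | rfl
  · have h := twist hT hT' h1 h2 hkk hgT hgT' 1
    rw [h, mul_one, pow_one]
  · have h := twist hT hT' h1 h2 hkk hgT hgT' w
    rw [h, ← pow_succ, hc]

/-- The reduction: only the part of `S` where `z = 1` and `b = 1` contributes. -/
theorem dd_red (hw : IsPrimitiveRoot w 3) {g a b z : Module.End K V} {S : Submodule K V}
    (ha : ∀ v ∈ S, a v ∈ S) (hb : ∀ v ∈ S, b v ∈ S) (hz : ∀ v ∈ S, z v ∈ S)
    (ha3 : ∀ v ∈ S, a (a (a v)) = v) (hb3 : ∀ v ∈ S, b (b (b v)) = v) (hz3 : ∀ v ∈ S, z (z (z v)) = v)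
    (hab : ∀ v ∈ S, a (b v) = b (a v)) (haz : ∀ v ∈ S, a (z v) = z (a v)) (hbz : ∀ v ∈ S, b (z v) = z (b v))
    (h1 : ∀ v ∈ S, g (z v) = z (g v)) (h2 : ∀ v ∈ S, g (b v) = b (z (g v)))
    (h3 : ∀ v ∈ S, g (a v) = a (b (g v))) :
    dd w S g = dd w ((S ⊓ eig z 1) ⊓ eig b 1) g := by
  have hc := w_cube hw
  rw [dd_split hw hz hz3 h1, Finset.sum_range_succ, Finset.sum_range_succ, Finset.sum_range_one, pow_zero]
  have hk : ∀ k : ℕ, k = 1 ∨ k = 2 → dd w (S ⊓ eig z (w ^ k)) g = 0 := by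
    intro k hk
    have hinv : ∀ v ∈ (S ⊓ eig z (w ^ k) : Submodule K V), b v ∈ (S ⊓ eig z (w ^ k) : Submodule K V) := by
      intro v hv
      refine ⟨hb v hv.1, ?_⟩
      show z (b v) = _
      rw [← hbz v hv.1, show z v = w ^ k • v from hv.2, map_smul]
    have hgv : ∀ v ∈ (S ⊓ eig z (w ^ k) : Submodule K V), z (g v) = w ^ k • g v := by
      intro v hv
      rw [← h1 v hv.1, show z v = w ^ k • v from hv.2, map_smul]
    have hgb : ∀ v ∈ (S ⊓ eig z (w ^ k) : Submodule K V), g (b v) = w ^ k • b (g v) := by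
      intro v hv
      rw [h2 v hv.1, hgv v hv, map_smul]
    refine dd_zero hw (T := b) (T' := b * b) hinv (fun v hv => hinv _ (hinv v hv))
      (fun v hv => hb3 v hv.1) (fun v hv => hb3 v hv.1) hk hgb ?_
    intro v hv
    show g (b (b v)) = w ^ (2 * k) • b (b (g v))
    rw [hgb _ (hinv v hv), hgb v hv, map_smul, smul_smul, ← pow_add, two_mul]
  rw [hk 1 (Or.inl rfl), hk 2 (Or.inr rfl), add_zero, add_zero]
  have hb' : ∀ v ∈ (S ⊓ eig z 1 : Submodule K V), b v ∈ (S ⊓ eig z 1 : Submodule K V) := by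
    intro v hv
    refine ⟨hb v hv.1, ?_⟩
    show z (b v) = _
    rw [← hbz v hv.1, show z v = (1 : K) • v from hv.2, map_smul]
  have hg' : ∀ v ∈ (S ⊓ eig z 1 : Submodule K V), g (b v) = b (g v) := by
    intro v hv
    rw [h2 v hv.1, ← h1 v hv.1, show z v = (1 : K) • v from hv.2, one_smul]
  rw [dd_split hw hb' (fun v hv => hb3 v hv.1) hg', Finset.sum_range_succ, Finset.sum_range_succ,
    Finset.sum_range_one, pow_zero]
  have hk : ∀ k : ℕ, k = 1 ∨ k = 2 → dd w ((S ⊓ eig z 1) ⊓ eig b (w ^ k)) g = 0 := by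
    intro k hk
    have hinv : ∀ v ∈ ((S ⊓ eig z 1) ⊓ eig b (w ^ k) : Submodule K V),
        a v ∈ ((S ⊓ eig z 1) ⊓ eig b (w ^ k) : Submodule K V) := by
      intro v hv
      refine ⟨⟨ha v hv.1.1, ?_⟩, ?_⟩
      · show z (a v) = _
        rw [← haz v hv.1.1, show z v = (1 : K) • v from hv.1.2, map_smul]
      · show b (a v) = _
        rw [← hab v hv.1.1, show b v = w ^ k • v from hv.2, map_smul]
    have hgv : ∀ v ∈ ((S ⊓ eig z 1) ⊓ eig b (w ^ k) : Submodule K V), b (g v) = w ^ k • g v := by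
      intro v hv
      rw [← hg' v hv.1, show b v = w ^ k • v from hv.2, map_smul]
    have hgb : ∀ v ∈ ((S ⊓ eig z 1) ⊓ eig b (w ^ k) : Submodule K V), g (a v) = w ^ k • a (g v) := by
      intro v hv
      rw [h3 v hv.1.1, hgv v hv, map_smul]
    refine dd_zero hw (T := a) (T' := a * a) hinv (fun v hv => hinv _ (hinv v hv))
      (fun v hv => ha3 v hv.1.1) (fun v hv => ha3 v hv.1.1) hk hgb ?_
    intro v hv
    show g (a (a v)) = w ^ (2 * k) • a (a (g v))
    rw [hgb _ (hinv v hv), hgb v hv, map_smul, smul_smul, ← pow_add, two_mul]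
  rw [hk 1 (Or.inl rfl), hk 2 (Or.inr rfl), add_zero, add_zero]

end Cfsg.Agent.H224.E8
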