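import Cfsg.Agent.H224.FiveDefs
import Cfsg.Agent.H321.SpecEven.Defs

/-!
# `H321.SpecEven.Cand true 2 k S` gives `C5` (helper224)
-/

set_option autoImplicit false

namespace Cfsg.Agent.H224.Five

open Cfsg.Agent.H403.NumTop Cfsg.Agent.H321.SpecEven

/-- `q ^ 4 + q ^ 3 + q ^ 2 + q + 1` -/
def W (q : ℕ) : ℕ := q ^ 4 + q ^ 3 + q ^ 2 + q + 1

theorem W_mul {q : ℕ} (hq : 1 ≤ q) : W q * (q - 1) = q ^ 5 - 1 := by
  obtain ⟨r, rfl⟩ : ∃ r, q = r + 1 := ⟨q - 1, by omega⟩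
  rw [Nat.add_sub_cancel, W]
  have : (r + 1) ^ 5 = ((r + 1) ^ 4 + (r + 1) ^ 3 + (r + 1) ^ 2 + (r + 1) + 1) * r + 1 := by ring
  rw [this, Nat.add_sub_cancel]

theorem not_25_dvd_W (q : ℕ) : ¬ 25 ∣ W q := by
  intro h
  rw [← ZMod.natCast_eq_zero_iff, W] at h
  push_cast at h
  generalize (q : ZMod 25) = x at h
  revert h
  revert x
  decide

theorem five_dvd_W {q : ℕ} (hq : 1 ≤ q) : 5 ∣ W q ↔ 5 ∣ q - 1 := by
  have h2 : 5 ∣ q - 1 ↔ ((q : ZMod 5)) = 1 := by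
    rw [← ZMod.natCast_eq_zero_iff, Nat.cast_sub hq, Nat.cast_one, sub_eq_zero]
  rw [h2, ← ZMod.natCast_eq_zero_iff, W]
  push_cast
  generalize (q : ZMod 5) = x
  revert x
  decide

/-- the prime divisors of `W q` -/
theorem order_of_dvd_W {q r : ℕ} (hq : 1 ≤ q) (hr : r.Prime) (h : r ∣ W q) (h5 : r ≠ 5) :
    orderOf ((q : ℕ) : ZMod r) = 5 := by
  have := Fact.mk hr
  have h1 : ((q : ℕ) : ZMod r) ^ 5 = 1 := by
    have h2 : r ∣ q ^ 5 - 1 := W_mul hq ▸ h.mul_right _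
    rw [← ZMod.natCast_eq_zero_iff, Nat.cast_sub (Nat.one_le_pow _ _ hq), Nat.cast_pow, Nat.cast_one, sub_eq_zero] at h2
    exact h2
  have : Fact (Nat.Prime 5) := ⟨by norm_num⟩
  refine orderOf_eq_prime h1 fun h2 => ?_
  rw [← ZMod.natCast_eq_zero_iff, W] at h
  push_cast at h
  rw [h2] at h
  have h3 : ((5 : ℕ) : ZMod r) = 0 := by rw [← h]; push_cast; ring
  rw [ZMod.natCast_eq_zero_iff] at h3
  exact h5 ((Nat.prime_dvd_prime_iff_eq hr (by norm_num)).1 h3)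

theorem order_of_dvd_sq {q r : ℕ} (hq : Even q) (hr : r.Prime) (h : r ∣ q ^ 2 + 1) :
    orderOf ((q : ℕ) : ZMod r) = 4 := by
  have := Fact.mk hr
  have h2 : r ≠ 2 := by
    rintro rfl
    have h3 : Odd (q ^ 2 + 1) := ((Nat.even_pow).2 ⟨hq, by norm_num⟩).add_one
    obtain ⟨k, hk⟩ := h3
    omega
  have h1 : ((q : ℕ) : ZMod r) ^ 2 = -1 := by
    rw [← ZMod.natCast_eq_zero_iff] at h
    push_cast at h
    linear_combination h
  have hne : (-1 : ZMod r) ≠ 1 := by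
    intro h3
    have h4 : ((2 : ℕ) : ZMod r) = 0 := by push_cast; linear_combination -h3
    rw [ZMod.natCast_eq_zero_iff] at h4
    exact h2 ((Nat.prime_dvd_prime_iff_eq hr Nat.prime_two).1 h4)
  have : Fact (Nat.Prime 2) := ⟨Nat.prime_two⟩
  have h3 := orderOf_eq_prime_pow (x := ((q : ℕ) : ZMod r)) (p := 2) (n := 1) (by rw [pow_one, h1]; exact hne)
    (by rw [show 2 ^ (1 + 1) = 2 * 2 from rfl, pow_mul, h1]; ring)
  simpa using h3

/-- **The case `PSL 5 (2 ^ k)`.** -/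
theorem of_cand {k : ℕ} {S : Type*} [Group S] (h : Cand true 2 k S) :
    ∃ N d : ℕ, C5 1 k N d S := by
  have hk := h.hk
  have hq1 : 1 ≤ 2 ^ k := Nat.one_le_two_pow
  have hqe : Even (2 ^ k) := (Nat.even_pow).2 ⟨even_two, by omega⟩
  set q := 2 ^ k with hq
  have hd : dd true (2 ^ 2 + 1) q = 1 ∨ dd true (2 ^ 2 + 1) q = 5 :=
    (Nat.dvd_prime (by norm_num : Nat.Prime 5)).1 (Nat.gcd_dvd_left _ _)
  have hA1 : AA true 1 q = q - 1 := by simp [AA]
  have hA5 : AA true (2 ^ 2 + 1) q = q ^ 5 - 1 := by simp [AA]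
  have hA4 : AA true (2 ^ 2) q = q ^ 4 - 1 := by simp [AA]
  have hod : ∀ r, od true q r = orderOf ((q : ℕ) : ZMod r) := by
    intro r
    unfold od xv
    simp
  have hdd : dd true (2 ^ 2 + 1) q = Nat.gcd 5 (q - 1) := by rw [dd, hA1]; norm_num
  set d := dd true (2 ^ 2 + 1) q with hdef
  have hdW : d ∣ W q := by
    rcases hd with h1 | h1
    · rw [h1]; exact one_dvd _
    · rw [h1, five_dvd_W hq1]
      rw [hdd] at h1
      rw [← h1]
      exact Nat.gcd_dvd_right _ _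
  obtain ⟨N, hN⟩ := hdW
  have hd0 : 0 < d := by rcases hd with h1 | h1 <;> omega
  have h5N : ¬ 5 ∣ N := by
    intro h1
    have h2 : 5 ∣ W q := by rw [hN]; exact h1.mul_left _
    rw [five_dvd_W hq1] at h2
    have h3 : 5 ∣ d := by rw [hdd]; exact Nat.dvd_gcd dvd_rfl h2
    apply not_25_dvd_W q
    rw [hN]
    exact Nat.mul_dvd_mul h3 h1
  have hNo : ∀ r : ℕ, r.Prime → r ∣ N → od true q r = 2 ^ 2 + 1 := by
    intro r hr hrN
    rw [hod]
    exact order_of_dvd_W hq1 hr (hN ▸ hrN.mul_left _) (by rintro rfl; exact h5N hrN)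
  have hao : ∀ r : ℕ, r.Prime → r ∣ q ^ 2 + 1 → od true q r = 2 ^ 2 := by
    intro r hr hrN
    rw [hod]
    exact order_of_dvd_sq hqe hr hrN
  have hWmul := W_mul hq1
  refine ⟨N, d, ?_⟩
  exact {
    eps := Or.inl rfl
    one_le := hk
    two_le := fun h => absurd h (by norm_num)
    hd := hd
    hN := by
      have h1 : ((N * d : ℕ) : ℤ) = (W q : ℤ) := by rw [hN, mul_comm]
      have h2 : ((q : ℕ) : ℤ) = 2 ^ k := by rw [hq]; push_cast; ring
      rw [W] at h1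
      push_cast at h1
      rw [h2] at h1
      rw [h1, V]
      ring
    eight := h.two
    four := by
      intro g s hs h1 h2
      have h3 := h.pred g s hs (hao s hs h1) h2
      rwa [hA4] at h3
    ten := by
      intro g s hs h1 h2
      have h3 := h.top g s hs (hNo s hs h1) h2
      rw [hA1, hA5, ← hWmul, hN] at h3
      rcases Nat.eq_zero_or_pos (q - 1) with h0 | h0
      · exfalso
        obtain ⟨j, hj⟩ := hqe
        omega
      · have h4 := Nat.dvd_of_mul_dvd_mul_right h0 h3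
        rw [mul_comm d N] at h4
        exact Nat.dvd_of_mul_dvd_mul_right hd0 h4
    ex_ten := by
      refine h.ex_top N hNo ?_
      rw [hA5, ← hWmul, hN]
      exact (Dvd.intro_left d rfl).mul_right _
    ex_four := by
      refine h.ex_pred _ hao ?_
      rw [hA4]
      refine ⟨q ^ 2 - 1, ?_⟩
      have h1 : 1 ≤ q ^ 2 := Nat.one_le_pow _ _ hq1
      obtain ⟨x, hx⟩ : ∃ x, q ^ 2 = x + 1 := ⟨q ^ 2 - 1, by omega⟩
      have h2 : q ^ 4 = (q ^ 2) ^ 2 := by ring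
      rw [h2, hx, Nat.add_sub_cancel]
      have h3 : (x + 1) ^ 2 = (x + 1 + 1) * x + 1 := by ring
      rw [h3, Nat.add_sub_cancel] }

end Cfsg.Agent.H224.Five
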